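import Cfsg.Agent.H377.RowOrth

/-!
# Automorphisms of odd prime order of `E Q / Z` induced by semisimilitudes (helper377)

* `inner_of_lin` : similitudes induce inner automorphisms (odd prime order);
* `field_ne` : properly semilinear ones fix no element of large prime order.
-/

set_option autoImplicit false
set_option linter.unusedSectionVars false
set_option linter.style.haveILetI false

namespace Cfsg.Agent.H377.RowOrth

open QuadraticMap Module Subgroup Matrix
open Cfsg.Agent.LieClassical.OrthCore Cfsg.Agent.LieClassical.OrthTrans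
open Cfsg.Agent.ClassicalGeometry.OrthAut1 (center_scalar)
open Cfsg.Agent.ClassicalGeometry.OrthSemi
open Cfsg.Agent.CpAut.Orth
open Cfsg.Agent.H568 Cfsg.Agent.H377.Fpf

section Inner

variable {F V : Type*} [Field F] [AddCommGroup V] [Module F V] {Q : QuadraticForm F V}

/-- Isometries of odd order induce inner automorphisms. -/
theorem inner_of_isom (hG : Good Q) {N : Gam Q} (hNs : IsSS Q (1 : F ≃+* F) 1 N.1) {k : ℕ} (hk : Odd k)
    (hNk : N.1 ^ k = 1) :
    Psi Q N ∈ (MulAut.conj : ↥(E Q) ⧸ Subgroup.center ↥(E Q) →* _).range := by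
  let n : V ≃ₗ[F] V :=
    { N.1 with
      map_add' := hNs.add
      map_smul' := hNs.smul }
  have hn : ∀ v, n v = N.1 v := fun v => rfl
  have hnO : n ∈ O Q := by
    intro v
    rw [hn, hNs.form, one_mul]
    rfl
  have hnp : n ^ k = 1 := by
    have h1 : ∀ (k : ℕ) (v : V), (n ^ k) v = (N.1 ^ k) v := by
      intro k
      induction k with
      | zero => exact fun v => rfl
      | succ k ih =>
        intro v
        rw [pow_succ, pow_succ, LinearEquiv.mul_apply, Equiv.Perm.mul_apply, ih, hn]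
    apply LinearEquiv.ext
    intro v
    rw [h1, hNk]
    rfl
  have hnE : n ∈ E Q := Cfsg.Agent.ETable.Orth.mem_E_of_pow hG hnO hk hnp
  refine ⟨QuotientGroup.mk ⟨n, hnE⟩, ?_⟩
  apply MulEquiv.ext
  intro x
  induction x using QuotientGroup.induction_on with
  | H k =>
    rw [Psi_mk]
    change (QuotientGroup.mk (⟨n, hnE⟩ : ↥(E Q)) * QuotientGroup.mk k * (QuotientGroup.mk (⟨n, hnE⟩ : ↥(E Q)))⁻¹ :
      ↥(E Q) ⧸ Subgroup.center ↥(E Q)) = _
    have h7 : conjE Q N k = (⟨n, hnE⟩ : ↥(E Q)) * k * (⟨n, hnE⟩ : ↥(E Q))⁻¹ := by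
      apply Subtype.ext
      rw [coe_conjE]
      apply LinearEquiv.ext
      intro v
      obtain ⟨w, rfl⟩ := N.1.surjective v
      rw [conjLin_apply']
      change N.1 (k.1 w) = n (k.1 (n⁻¹ (N.1 w)))
      have h8 : n⁻¹ (N.1 w) = w := by
        rw [← hn]
        exact n.symm_apply_apply w
      rw [h8, hn]
    rw [h7]
    rfl

theorem psi_scal (hG : Good Q) (d : Fˣ) : Psi Q (scal Q d) = 1 := by
  rw [← MonoidHom.mem_ker, ker_Psi hG]
  exact ⟨d, rfl⟩

/-- **Similitudes of odd prime order modulo scalars induce inner automorphisms.** -/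
theorem inner_of_lin (hG : Good Q) {p : ℕ} (hp : p.Prime) (hp2 : p ≠ 2) {M : Gam Q} {l : F}
    (hM : IsSS Q (1 : F ≃+* F) l M.1) (hα : Psi Q M ^ p = 1) :
    Psi Q M ∈ (MulAut.conj : ↥(E Q) ⧸ Subgroup.center ↥(E Q) →* _).range := by
  have hodd : Odd p := hp.odd_of_ne_two hp2
  let d : Fˣ := Units.mk0 l⁻¹ (inv_ne_zero hM.ne)
  obtain ⟨N, hN⟩ : ∃ N : Gam Q, N = scal Q d * (M * M) := ⟨_, rfl⟩
  have hNv : ∀ v, N.1 v = l⁻¹ • M.1 (M.1 v) := by
    intro v
    rw [hN]
    rfl
  have hNs : IsSS Q (1 : F ≃+* F) 1 N.1 := by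
    refine ⟨one_ne_zero, fun u v => ?_, fun x v => ?_, fun v => ?_⟩
    · rw [hNv, hNv, hNv, hM.add, hM.add, smul_add]
    · rw [hNv, hNv, hM.smul, hM.smul, smul_comm]
      rfl
    · rw [hNv, QuadraticMap.map_smul, hM.form, hM.form, smul_eq_mul]
      have h0 := hM.ne
      change l⁻¹ * l⁻¹ * (l * (l * Q v)) = 1 * Q v
      field_simp
  have hN2 : Psi Q N = Psi Q M * Psi Q M := by rw [hN, map_mul, psi_scal hG, one_mul, map_mul]
  have h1 : Psi Q N ^ p = 1 := by
    rw [hN2, (Commute.refl _).mul_pow, hα, one_mul]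
  rw [← map_pow, ← MonoidHom.mem_ker, ker_Psi hG] at h1
  obtain ⟨a, ha⟩ := h1
  have ha' : ∀ v, (N.1 ^ p) v = (a : F) • v := by
    intro v
    have h2 : (scal Q a).1 = N.1 ^ p := congrArg Subtype.val ha
    rw [← h2]
    rfl
  have hNp := isSS_pow hNs p
  have haa : (a : F) * a = 1 := by
    obtain ⟨v, hv⟩ := exists_ne hG
    have h2 := hNp.form v
    rw [ha', QuadraticMap.map_smul, smul_eq_mul] at h2
    have h3 : (((1 : F ≃+* F) ^ p) (Q v)) = Q v := by rw [one_pow]; rfl
    have h4 : (∏ i ∈ Finset.range p, (((1 : F ≃+* F) ^ i) (1 : F))) = 1 :=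
      Finset.prod_eq_one fun i _ => map_one _
    rw [h3, h4] at h2
    exact mul_right_cancel₀ hv h2
  obtain ⟨K, hK⟩ : ∃ K : Gam Q, K = N * N := ⟨_, rfl⟩
  have hKs : IsSS Q (1 : F ≃+* F) 1 K.1 := by
    have h2 := hNs.mul hNs
    rw [hK]
    refine ⟨one_ne_zero, h2.add, fun x v => h2.smul x v, fun v => ?_⟩
    change Q (N.1 (N.1 v)) = 1 * Q v
    rw [hNs.form, hNs.form]
    change 1 * (1 * Q v) = 1 * Q v
    rw [one_mul]
  have hKp : K.1 ^ p = 1 := by
    apply Equiv.ext
    intro v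
    have h2 : K.1 ^ p = N.1 ^ p * N.1 ^ p := by
      rw [hK]
      change (N.1 * N.1) ^ p = _
      exact (Commute.refl _).mul_pow p
    rw [h2, Equiv.Perm.mul_apply, ha', ha', smul_smul, haa, one_smul]
    rfl
  have h5 := inner_of_isom hG hKs hodd hKp
  have h6 : Psi Q K = Psi Q M ^ 4 := by
    rw [hK, map_mul, hN2, pow_succ, pow_succ, pow_two, ← mul_assoc]
  rw [h6] at h5
  have hco : Nat.Coprime 4 p := by
    have : Nat.Coprime 2 p := (Nat.coprime_primes Nat.prime_two hp).2 (Ne.symm hp2)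
    exact Nat.Coprime.pow_left 2 this
  obtain ⟨m, hm⟩ := exists_pow_eq_self_of_coprime (n := 4) (x := Psi Q M)
    (Nat.Coprime.coprime_dvd_right (orderOf_dvd_of_pow_eq_one hα) hco)
  rw [← hm]
  exact Subgroup.pow_mem _ h5 m

/-- the field automorphism has order dividing `p` -/
theorem sigma_pow (hG : Good Q) {p : ℕ} {σ : F ≃+* F} {M : Gam Q} {l : F}
    (hM : IsSS Q σ l M.1) (hα : Psi Q M ^ p = 1) : σ ^ p = 1 := by
  have h1 := hα
  rw [← map_pow, ← MonoidHom.mem_ker, ker_Psi hG] at h1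
  obtain ⟨a, ha⟩ := h1
  have ha' : (scal Q a).1 = M.1 ^ p := congrArg Subtype.val ha
  have h2 := isSS_pow hM p
  rw [← ha'] at h2
  have h4 : IsSS Q (1 : F ≃+* F) ((a : F) * a) (scal Q a).1 :=
    ⟨mul_ne_zero a.ne_zero a.ne_zero, fun u v => smul_add _ _ _, fun t v => smul_comm _ _ _, fun v => by
      change Q ((a : F) • v) = _
      rw [QuadraticMap.map_smul]
      rfl⟩
  exact (isSS_unique (exists_ne hG) h2 h4).1

end Inner

section Field

variable {F : Type*} [Field F] [Finite F] {ι : Type*} [Fintype ι] [DecidableEq ι] {Q : QuadraticForm F (ι → F)}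

/-- the matrix of a semilinear bijection -/
theorem exists_matrix {σ : F ≃+* F} {M : Equiv.Perm (ι → F)} {l : F} (hM : IsSS Q σ l M) :
    ∃ A : GL ι F, ∀ v : ι → F, M v = (A : Matrix ι ι F) *ᵥ (fun i => σ (v i)) := by
  classical
  let L : (ι → F) →ₗ[F] (ι → F) :=
    { toFun := fun v => M (fun i => σ.symm (v i))
      map_add' := fun u v => by
        rw [← hM.add]
        congr 1
        funext i
        exact map_add _ _ _
      map_smul' := fun c v => by
        have h1 : (fun i => σ.symm ((c • v) i)) = σ.symm c • (fun i => σ.symm (v i)) := by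
          funext i
          exact map_mul _ _ _
        rw [h1, hM.smul, RingEquiv.apply_symm_apply]
        rfl }
  have hL : Function.Injective L := by
    intro u v huv
    have h1 := M.injective huv
    funext i
    exact σ.symm.injective (congrFun h1 i)
  let Le : (ι → F) ≃ₗ[F] (ι → F) := LinearEquiv.ofInjectiveEndo L hL
  refine ⟨toGL Le, fun v => ?_⟩
  rw [toGL_mulVec]
  change M v = M (fun i => σ.symm (σ (v i)))
  congr 1
  funext i
  exact (RingEquiv.symm_apply_apply σ _).symm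

/-- **Properly semilinear automorphisms fix no element of large prime order.** -/
theorem field_ne (hG : Good Q) {p : ℕ} (hp : p.Prime) {σ : F ≃+* F} {M : Gam Q} {c : F}
    (hM : IsSS Q σ c M.1) (hσ : σ ≠ 1) (hα : Psi Q M ^ p = 1) {l : ℕ} (hl : l.Prime) (hl2 : l ≠ 2)
    (hlF : ¬ l ∣ Nat.card F) {r f e : ℕ} (hr : r.Prime) (hF : Nat.card F = r ^ f)
    (hE : ∀ m, m ≠ 0 → l ∣ r ^ m - 1 → e ≤ m) (hEn : f * Fintype.card ι < p * e)
    {x : ↥(E Q) ⧸ center ↥(E Q)} (hx : orderOf x = l) : Psi Q M x ≠ x := by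
  intro hfix
  haveI := finite_E Q
  have hxl : x ^ l = 1 := hx ▸ pow_orderOf_eq_one x
  obtain ⟨X, rfl, hX⟩ := exists_lift hG hl hl2 hxl
  have hX1 : X ≠ 1 := by
    rintro rfl
    have h3 : orderOf ((1 : ↥(E Q)) : ↥(E Q) ⧸ center ↥(E Q)) = 1 := orderOf_one
    rw [h3] at hx
    exact hl.one_lt.ne hx
  have h1 : conjE Q M X = X := by
    refine eq_of_lift (π := QuotientGroup.mk' (center ↥(E Q)))
      (by rw [QuotientGroup.ker_mk']) hl (not_dvd_center hG hl hl2) hfix ?_ hX
    rw [← map_pow, hX, map_one]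
  have h2 := comm_of_fixed h1
  obtain ⟨A, hA⟩ := exists_matrix hM
  have h3 : (A : Matrix ι ι F) * (rE Q X : Matrix ι ι F).map σ = (rE Q X : Matrix ι ι F) * A := by
    apply Matrix.toLin'.injective
    apply LinearMap.ext
    intro w
    obtain ⟨v, rfl⟩ : ∃ v : ι → F, (fun i => σ (v i)) = w :=
      ⟨fun i => σ.symm (w i), funext fun i => RingEquiv.apply_symm_apply σ _⟩
    rw [Matrix.toLin'_apply, Matrix.toLin'_apply, ← Matrix.mulVec_mulVec, ← Matrix.mulVec_mulVec, ← hA, rE_mulVec]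
    have h4 : ((rE Q X : Matrix ι ι F).map σ) *ᵥ (fun i => σ (v i)) = fun i => σ (((rE Q X : Matrix ι ι F) *ᵥ v) i) := by
      funext i
      simp only [Matrix.mulVec, dotProduct, Matrix.map_apply, map_sum, map_mul]
    rw [h4, ← hA, rE_mulVec]
    exact (h2 v)
  apply hσ
  refine FieldFix.sigma_eq_one hl hlF hp (sigma_pow hG hM hα) hr hF hE hEn h3 ?_ ?_
  · have h5 : rE Q X ^ l = 1 := by rw [← map_pow, hX, map_one]
    have := congrArg Units.val h5
    simpa using this
  · intro h5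
    apply hX1
    apply rE_injective
    rw [map_one]
    exact Units.ext h5

end Field

end Cfsg.Agent.H377.RowOrth
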