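import Cfsg.Agent.Lib.Zsigmondy

/-!
# Number theory for the orthogonal rows of S4329 (helper377)

`Prm r f e l` : `l` is a prime such that `r` has order `f * e` modulo `l`; `q = r ^ f`.
-/

set_option autoImplicit false

namespace Cfsg.Agent.H377.RowNum

/-- `l` is a primitive prime divisor of `r ^ (f * e) - 1`. -/
structure Prm (r f e l : ℕ) : Prop where
  prime : l.Prime
  order : orderOf ((r : ℕ) : ZMod l) = f * e

variable {r f e l : ℕ}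

theorem exists_prm (hr : 2 ≤ r) (he : 2 < f * e) (h6 : ¬ (r = 2 ∧ f * e = 6)) : ∃ l, Prm r f e l := by
  obtain ⟨l, hl, ho⟩ := Cfsg.Agent.Lib.Zsigmondy.exists_prime_orderOf (a := r) (n := f * e) hr (by omega)
    (fun h => by omega) h6
  exact ⟨l, hl, ho⟩

theorem Prm.dvd_iff (h : Prm r f e l) (hr : 2 ≤ r) (m : ℕ) : l ∣ r ^ m - 1 ↔ f * e ∣ m := by
  rw [Cfsg.Agent.Lib.Zsigmondy.dvd_pow_sub_one_iff (by omega), h.order]

theorem Prm.dvd_q_iff (h : Prm r f e l) (hr : 2 ≤ r) (hf : 0 < f) {q : ℕ} (hq : q = r ^ f) (m : ℕ) :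
    l ∣ q ^ m - 1 ↔ e ∣ m := by
  rw [hq, ← pow_mul, h.dvd_iff hr, Nat.mul_dvd_mul_iff_left hf]

theorem Prm.not_dvd (h : Prm r f e l) (hr : 2 ≤ r) (he : 0 < f * e) : ¬ l ∣ r := by
  intro hd
  have h1 := (h.dvd_iff hr (f * e)).2 dvd_rfl
  have h2 : l ∣ r ^ (f * e) := dvd_pow hd (by omega)
  have h3 : l ∣ 1 := by
    have h4 : 1 ≤ r ^ (f * e) := Nat.one_le_pow _ _ (by omega)
    have := Nat.dvd_sub h2 h1
    rwa [Nat.sub_sub_self h4] at this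
  exact h.prime.one_lt.ne' (Nat.dvd_one.1 h3)

theorem Prm.dvd_pred (h : Prm r f e l) (hr : 2 ≤ r) (he : 0 < f * e) : f * e ∣ l - 1 := by
  rw [← h.order]
  exact Cfsg.Agent.Lib.Zsigmondy.orderOf_dvd_pred h.prime (h.not_dvd hr he)

theorem Prm.lt (h : Prm r f e l) (hr : 2 ≤ r) (he : 0 < f * e) : f * e < l := by
  have h1 := Nat.le_of_dvd (by have := h.prime.two_le; omega) (h.dvd_pred hr he)
  have := h.prime.two_le
  omega

theorem Prm.ne_two (h : Prm r f e l) (hr : 2 ≤ r) (he : 2 ≤ f * e) : l ≠ 2 := by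
  have := h.lt hr (by omega)
  omega

theorem Prm.not_dvd_q (h : Prm r f e l) (hr : 2 ≤ r) (he : 0 < f * e) {q : ℕ} (hq : q = r ^ f) : ¬ l ∣ q := by
  intro hd
  rw [hq] at hd
  exact h.not_dvd hr he (h.prime.dvd_of_dvd_pow hd)

/-- even order `2m`: `l ∣ q ^ m + 1` -/
theorem Prm.dvd_plus {m : ℕ} (h : Prm r f (2 * m) l) (hr : 2 ≤ r) (hf : 0 < f) (hm : 0 < m) {q : ℕ} (hq : q = r ^ f) :
    l ∣ q ^ m + 1 := by
  have hq0 : 0 < q := by rw [hq]; exact Nat.pos_of_ne_zero (pow_ne_zero _ (by omega))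
  have h1 := (h.dvd_q_iff hr hf hq (2 * m)).2 dvd_rfl
  have h2 : q ^ (2 * m) - 1 = (q ^ m + 1) * (q ^ m - 1) := by
    have := Nat.sq_sub_sq (q ^ m) 1
    rw [one_pow, ← pow_mul, mul_comm m 2] at this
    exact this
  rw [h2] at h1
  rcases (Nat.Prime.dvd_mul h.prime).1 h1 with h3 | h3
  · exact h3
  · exfalso
    have h4 := (h.dvd_q_iff hr hf hq m).1 h3
    have := Nat.le_of_dvd hm h4
    omega

theorem sign_minus {m q : ℕ} (h : l ∣ q ^ m + 1) : (l : ℤ) ∣ (-1) * (q : ℤ) ^ m - 1 := by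
  have h1 : (l : ℤ) ∣ (q : ℤ) ^ m + 1 := by exact_mod_cast h
  have h2 : (-1) * (q : ℤ) ^ m - 1 = -((q : ℤ) ^ m + 1) := by ring
  rw [h2]
  exact (dvd_neg.2 h1)

theorem sign_plus {m q : ℕ} (hq : 0 < q) (h : l ∣ q ^ m - 1) : (l : ℤ) ∣ 1 * (q : ℤ) ^ m - 1 := by
  rw [one_mul]
  have h1 : 1 ≤ q ^ m := Nat.one_le_pow _ _ hq
  have h2 : ((q ^ m - 1 : ℕ) : ℤ) = (q : ℤ) ^ m - 1 := by rw [Nat.cast_sub h1]; push_cast; rfl
  rw [← h2]
  exact_mod_cast h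

theorem of_sign_minus {m q : ℕ} {p : ℕ} (h : (p : ℤ) ∣ (-1) * (q : ℤ) ^ m - 1) : p ∣ q ^ m + 1 := by
  have h2 : (-1) * (q : ℤ) ^ m - 1 = -((q : ℤ) ^ m + 1) := by ring
  rw [h2, dvd_neg] at h
  exact_mod_cast h

theorem of_sign_plus {m q : ℕ} (hq : 0 < q) {p : ℕ} (h : (p : ℤ) ∣ 1 * (q : ℤ) ^ m - 1) : p ∣ q ^ m - 1 := by
  rw [one_mul] at h
  have h1 : 1 ≤ q ^ m := Nat.one_le_pow _ _ hq
  have h2 : ((q ^ m - 1 : ℕ) : ℤ) = (q : ℤ) ^ m - 1 := by rw [Nat.cast_sub h1]; push_cast; rfl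
  rw [← h2] at h
  exact_mod_cast h

/-- `p ∣ q ^ j - 1` with `j` odd and `p ∣ q ^ m + 1` is impossible for odd primes. -/
theorem not_both {p q j m : ℕ} (hp : p.Prime) (hp2 : p ≠ 2) (hq : 0 < q) (hj : Odd j) (h1 : p ∣ q ^ j - 1)
    (h2 : p ∣ q ^ m + 1) : False := by
  have h3 : ((q : ZMod p)) ^ j = 1 := by
    have h4 : ((q ^ j - 1 : ℕ) : ZMod p) = 0 := (ZMod.natCast_eq_zero_iff _ _).2 h1
    rw [Nat.cast_sub (Nat.one_le_pow _ _ hq)] at h4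
    push_cast at h4
    exact sub_eq_zero.1 h4
  have h5 : ((q : ZMod p)) ^ m = -1 := by
    have h6 : ((q ^ m + 1 : ℕ) : ZMod p) = 0 := (ZMod.natCast_eq_zero_iff _ _).2 h2
    push_cast at h6
    exact eq_neg_of_add_eq_zero_left h6
  have h7 : ((q : ZMod p)) ^ (m * j) = -1 := by rw [pow_mul, h5, hj.neg_one_pow]
  have h8 : ((q : ZMod p)) ^ (m * j) = 1 := by rw [mul_comm, pow_mul, h3, one_pow]
  rw [h8] at h7
  have h9 : (2 : ZMod p) = 0 := by linear_combination h7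
  have h10 : p ∣ 2 := (ZMod.natCast_eq_zero_iff 2 p).1 (by exact_mod_cast h9)
  exact hp2 ((Nat.prime_dvd_prime_iff_eq hp Nat.prime_two).1 h10)

end Cfsg.Agent.H377.RowNum
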