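import Cfsg.Agent.H377.RowOrth

/-!
# Own characteristic in the orthogonal rows of S4329 (helper377)

`noNorm_own` : `p` the (odd) characteristic, `X` an element of `E Q` without nonzero invariant totally singular subspace:
the image of `X` normalises no nontrivial `p`-subgroup.
`aniso_of_sign` : a nondegenerate plane of sign `-1` is anisotropic.
-/

set_option autoImplicit false
set_option linter.unusedSectionVars false
set_option linter.style.haveILetI false

namespace Cfsg.Agent.H377.RowOrth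

open QuadraticMap Module Subgroup Matrix
open Cfsg.Agent.LieClassical.OrthCore Cfsg.Agent.LieClassical.OrthTrans
open Cfsg.Agent.H568 Cfsg.Agent.H377.Fpf

/-- A `p`-group in characteristic `p` fixes a nonzero vector of every nonzero invariant subspace. -/
theorem exists_fixed {F V Γ : Type*} [Field F] [Finite F] [AddCommGroup V] [Module F V] [FiniteDimensional F V]
    [Group Γ] {p : ℕ} [hp : Fact p.Prime] (hpF : (p : F) = 0) (ρ : Γ →* End F V) (T : Subgroup Γ)
    [Finite T] (hT : IsPGroup p T) (W : Submodule F V) (hW : ∀ y ∈ T, ∀ w ∈ W, ρ y w ∈ W) (hW0 : W ≠ ⊥) :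
    ∃ w ∈ W, w ≠ 0 ∧ ∀ y ∈ T, ρ y w = w := by
  have hV : Finite V := Module.finite_of_finite F
  let act : MulAction ↥T W :=
    { smul := fun y v => ⟨ρ y v, hW y y.2 v v.2⟩
      one_smul := fun v => Subtype.ext (by
        show ρ ((1 : ↥T) : Γ) (v : V) = v
        rw [OneMemClass.coe_one, map_one]
        rfl)
      mul_smul := fun y z v => Subtype.ext (by
        show ρ ((y * z : ↥T) : Γ) (v : V) = ρ (y : Γ) (ρ (z : Γ) v)
        rw [Subgroup.coe_mul, map_mul]
        rfl) }
  have hsm : ∀ (y : ↥T) (v : W), ((y • v : W) : V) = ρ (y : Γ) v := fun _ _ => rfl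
  haveI : CharP F p := by
    obtain ⟨c, hc⟩ := CharP.exists F
    have hcp : c.Prime := CharP.char_is_prime F c
    have h1 : c ∣ p := (CharP.cast_eq_zero_iff F c p).1 hpF
    rwa [(Nat.prime_dvd_prime_iff_eq hcp hp.1).1 h1] at hc
  have hWp : p ∣ Nat.card W := by
    have h1 : p ∣ Nat.card F := by
      letI := Fintype.ofFinite F
      obtain ⟨n, hn, hc⟩ := FiniteField.card F p
      rw [Nat.card_eq_fintype_card, hc]
      exact dvd_pow_self p n.ne_zero
    rw [Module.natCard_eq_pow_finrank (K := F) (V := W)]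
    refine h1.trans (dvd_pow_self _ ?_)
    intro h0
    exact hW0 (Submodule.finrank_eq_zero.1 h0)
  obtain ⟨b, hb, hb0⟩ := hT.exists_fixed_point_of_prime_dvd_card_of_fixed_point W hWp (a := 0) (by
    intro y
    apply Subtype.ext
    rw [hsm]
    exact map_zero _)
  refine ⟨b, b.2, fun h => hb0 (Subtype.ext h.symm), fun y hy => ?_⟩
  have := congrArg Subtype.val (hb ⟨y, hy⟩)
  rwa [hsm] at this

variable {F : Type*} [Field F] {ι : Type*} [Fintype ι] [DecidableEq ι] {Q : QuadraticForm F (ι → F)}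

/-- **`NoNorm` in the own characteristic.** -/
theorem noNorm_own [Finite F] (_hG : Good Q) {p : ℕ} [hp : Fact p.Prime] (hp2 : p ≠ 2) (hpF : (p : F) = 0) {X : ↥(E Q)}
    (hno : ∀ U : Submodule F (ι → F), (∀ u ∈ U, (X : (ι → F) ≃ₗ[F] (ι → F)) u ∈ U) → (∀ u ∈ U, Q u = 0) → U = ⊥) :
    NoNorm p (X : ↥(E Q) ⧸ center ↥(E Q)) := by
  haveI := finite_E Q
  have h2F : (2 : F) ≠ 0 := by
    intro h2
    haveI : CharP F p := by
      obtain ⟨c, hc⟩ := CharP.exists F
      have hcp : c.Prime := CharP.char_is_prime F c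
      have h1 : c ∣ p := (CharP.cast_eq_zero_iff F c p).1 hpF
      rwa [(Nat.prime_dvd_prime_iff_eq hcp hp.1).1 h1] at hc
    have h3 : p ∣ 2 := (CharP.cast_eq_zero_iff F p 2).1 (by exact_mod_cast h2)
    exact hp2 ((Nat.prime_dvd_prime_iff_eq hp.1 Nat.prime_two).1 h3)
  refine noNorm_cover (π := QuotientGroup.mk' (center ↥(E Q))) (QuotientGroup.mk'_surjective _)
    (by rw [QuotientGroup.ker_mk']) fun T hT hX y hy => ?_
  let ρ : ↥(E Q) →* Module.End F (ι → F) :=
    { toFun := fun g => toEnd (g : (ι → F) ≃ₗ[F] (ι → F))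
      map_one' := rfl
      map_mul' := fun _ _ => rfl }
  have hρ : ∀ (g : ↥(E Q)) (v : ι → F), ρ g v = (g : (ι → F) ≃ₗ[F] (ι → F)) v := fun _ _ => rfl
  have hpol : ∀ (g : ↥(E Q)) (v w : ι → F), polar Q (ρ g v) (ρ g w) = polar Q v w := fun g v w =>
    polar_map (E_le_O g.2) v w
  by_contra hy1
  have hy1' : ρ y ≠ 1 := by
    intro h
    apply hy1
    have : y = 1 := by
      apply Subtype.ext
      apply LinearEquiv.ext
      intro v
      exact LinearMap.congr_fun h v
    rw [this]
    exact one_mem _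
  -- the fixed space
  let W : Submodule F (ι → F) :=
    { carrier := {v | ∀ y ∈ T, ρ y v = v}
      add_mem' := fun {u v} hu hv y hy => by rw [map_add, hu y hy, hv y hy]
      zero_mem' := fun y _ => map_zero _
      smul_mem' := fun c v hv y hy => by rw [map_smul, hv y hy] }
  have hW : ∀ v, v ∈ W ↔ ∀ y ∈ T, ρ y v = v := fun _ => Iff.rfl
  let D : Submodule F (ι → F) :=
    { carrier := {v | ∀ w ∈ W, polar Q v w = 0}
      add_mem' := fun {u v} hu hv w hw => by rw [polar_add_left, hu w hw, hv w hw, add_zero]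
      zero_mem' := fun w _ => by rw [QuadraticMap.polar_zero_left]
      smul_mem' := fun c v hv w hw => by rw [polar_smul_left, hv w hw, smul_zero] }
  have hD : ∀ v, v ∈ D ↔ ∀ w ∈ W, polar Q v w = 0 := fun _ => Iff.rfl
  have hDT : ∀ z ∈ T, ∀ v, ρ z v - v ∈ D := by
    intro z hz v
    rw [hD]
    intro w hw
    rw [polar_sub_left]
    have h1 := hpol z v w
    rw [(hW w).1 hw z hz] at h1
    rw [h1, sub_self]
  have hDinv : ∀ z ∈ T, ∀ v ∈ D, ρ z v ∈ D := by
    intro z hz v hv
    have h1 := D.add_mem (hDT z hz v) hv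
    rwa [sub_add_cancel] at h1
  have hD0 : D ≠ ⊥ := by
    intro h0
    apply hy1'
    apply LinearMap.ext
    intro v
    have h1 := hDT y hy v
    rw [h0] at h1
    exact sub_eq_zero.1 ((Submodule.mem_bot F).1 h1)
  obtain ⟨u, huD, hu0, huT⟩ := exists_fixed hpF ρ T hT D hDinv hD0
  have hUbot := hno (W ⊓ D) ?_ ?_
  · apply hu0
    have : u ∈ W ⊓ D := ⟨(hW u).2 huT, huD⟩
    rw [hUbot] at this
    exact (Submodule.mem_bot F).1 this
  · have hWX : ∀ g : ↥(E Q), g ∈ normalizer (T : Set ↥(E Q)) → ∀ v ∈ W, ρ g v ∈ W := by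
      intro g hg v hv
      rw [hW]
      intro z hz
      have h1 : g⁻¹ * z * g ∈ T := by
        have := (mem_normalizer_iff.1 (inv_mem hg) z).1 hz
        rwa [inv_inv] at this
      have h2 : z * g = g * (g⁻¹ * z * g) := by group
      rw [← Module.End.mul_apply, ← map_mul, h2, map_mul, Module.End.mul_apply, (hW v).1 hv _ h1]
    rintro v ⟨hv1, hv2⟩
    refine ⟨hWX X hX v hv1, ?_⟩
    intro w hw
    have h1 := hWX X⁻¹ (inv_mem hX) w hw
    have h2 : w = ρ X (ρ X⁻¹ w) := by
      rw [← Module.End.mul_apply, ← map_mul, mul_inv_cancel, map_one]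
      rfl
    rw [h2]
    change polar Q (ρ X v) (ρ X (ρ X⁻¹ w)) = 0
    rw [hpol]
    exact hv2 _ h1
  · rintro v ⟨hv1, hv2⟩
    have h1 := hv2 v hv1
    rw [polar_self'] at h1
    exact (mul_eq_zero.1 h1).resolve_left h2F

/-- A nondegenerate plane of sign `-1` is anisotropic. -/
theorem aniso_of_sign {F : Type*} [Field F] [Finite F] {W : Type*} [AddCommGroup W] [Module F W] [Finite W]
    (R : QuadraticForm F W) (hR : Nondeg R) (h2 : finrank F W = 2) (hs : HasSign (⇑R) 1 (-1)) {w : W} (hw : R w = 0) :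
    w = 0 := by
  haveI : FiniteDimensional F W := Module.Finite.of_finite
  rcases classify_all (m := 1) le_rfl (by rw [h2]) R hR with ⟨e, he⟩ | ⟨ζ, hζ, e, he⟩
  · exfalso
    have h1 := ((hasSign_quadFormPlus (F := F) 1).congr e.toEquiv he)
    have h2 := (hs.sign_eq h1 (Or.inr rfl) (Or.inl rfl)).1
    omega
  · obtain ⟨v, rfl⟩ := e.surjective w
    rw [he, Cfsg.Agent.LieClassical.OrthForms.quadFormMinus_apply] at hw
    have h3 : v (Sum.inr 0) ^ 2 + 1 * v (Sum.inr 0) * v (Sum.inr 1) + ζ * v (Sum.inr 1) ^ 2 = 0 := by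
      rw [← hw]
      simp
    obtain ⟨h4, h5⟩ := hζ _ _ h3
    have h6 : v = 0 := by
      funext i
      rcases i with (i | i) | i
      · exact i.elim0
      · exact i.elim0
      · fin_cases i
        · exact h4
        · exact h5
    rw [h6, map_zero]

end Cfsg.Agent.H377.RowOrth
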