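import Cfsg.Agent.H377.RowAut
import Cfsg.Agent.H377.RowOwn
import Cfsg.Agent.H377.RowNum
import Cfsg.Agent.H377.ToOmega
import Cfsg.Agent.H568.RowTools

/-!
# The row `PΩ⁺_{2n}(q)` of S4329, inner automorphisms (helper377)
-/

set_option autoImplicit false
set_option linter.unusedSectionVars false
set_option linter.style.haveILetI false

namespace Cfsg.Agent.H377.RowOPlus

open QuadraticMap Module Subgroup Cfsg
open Cfsg.Agent.LieClassical.OrthCore Cfsg.Agent.LieClassical.OrthTrans Cfsg.Agent.LieClassical.OrthForms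
open Cfsg.Agent.LieClassical.OrthFinite
open Cfsg.Agent.ClassicalGeometry.OrthSemi
open Cfsg.Agent.ClassicalGeometry.OrthSemiForms
open Cfsg.Agent.H568 Cfsg.Agent.H377.Fpf Cfsg.Agent.H377.RowOrth Cfsg.Agent.H377.RowNum
open Cfsg.Agent.H182.Cent (Inv IsoP fixS mem_fixS)

variable {F : Type} [Field F] [Fintype F] {n : ℕ}

/-- the simple group -/
abbrev PO (n : ℕ) (F : Type) [Field F] : Type := ↥(E (plusForm n F)) ⧸ center ↥(E (plusForm n F))

theorem good (hn : 4 ≤ n) : Good (plusForm n F) := good_plus (by omega)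

theorem card_idx : Fintype.card (Fin n ⊕ Fin n) = 2 * n := by
  rw [Fintype.card_sum, Fintype.card_fin]
  omega

theorem exists_of_elt (hn : 4 ≤ n) {l : ℕ} (hl : l.Prime) (hl2 : l ≠ 2) (h : Elt F n 1 l) :
    ∃ x : PO n F, orderOf x = l := by
  obtain ⟨g, hg⟩ := (h.two (by omega) (hl.odd_of_ne_two hl2)).plus hn
  have e := pomegaEquiv (good (F := F) hn)
  rw [coe_plusForm] at e
  exact ⟨e g, by rw [MulEquiv.orderOf_eq, hg]⟩

/-- elements of order `l ∣ q ^ (n - 1) + 1` -/
theorem exists_y1 (hn : 4 ≤ n) {l : ℕ} (hl : l.Prime) (hl2 : l ≠ 2) (h : l ∣ Nat.card F ^ (n - 1) + 1) :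
    ∃ x : PO n F, orderOf x = l := by
  have h1 := (elt_tor_minus (F := F) (k := n - 1) (by omega) h).add (m := 1) le_rfl (ε' := -1) (Or.inr rfl)
  rw [show n - 1 + 1 = n by omega] at h1
  exact exists_of_elt hn hl hl2 (by simpa using h1)

/-- elements of order `l ∣ q ^ k - 1`, `k = n - 1` or `n` -/
theorem exists_y2 (hn : 4 ≤ n) {l k : ℕ} (hl : l.Prime) (hl2 : l ≠ 2) (hk : k = n ∨ k = n - 1)
    (h : l ∣ Nat.card F ^ k - 1) : ∃ x : PO n F, orderOf x = l := by
  have h1 := elt_tor_plus (F := F) (k := k) (by omega) h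
  rcases hk with rfl | rfl
  · exact exists_of_elt hn hl hl2 h1
  · have h2 := h1.add (m := 1) le_rfl (ε' := 1) (Or.inl rfl)
    rw [show n - 1 + 1 = n by omega] at h2
    exact exists_of_elt hn hl hl2 (by simpa using h2)

/-- **The first torus.** -/
theorem noNorm_y1 (hn : 4 ≤ n) {r f l : ℕ} (hr : 2 ≤ r) (hf : 0 < f) (hF : Nat.card F = r ^ f)
    (hl : Prm r f (2 * (n - 1)) l) {p : ℕ} [hp : Fact p.Prime] (hp2 : p ≠ 2) (hpF : (p : F) ≠ 0)
    {j : ℕ} (hj : Odd j) (hpj : p ∣ Nat.card F ^ j - 1) {x : PO n F} (hx : orderOf x = l) : NoNorm p x := by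
  have hq : 0 < Nat.card F := Nat.card_pos
  have he : 2 < f * (2 * (n - 1)) := by
    have := Nat.le_mul_of_pos_left (2 * (n - 1)) hf
    omega
  have hlp : l ∣ Nat.card F ^ (n - 1) + 1 := hl.dvd_plus hr hf (by omega) hF
  have hlt := hl.lt hr (by omega)
  have hlF : (l : F) ≠ 0 := by
    intro h0
    have h1 := ringChar.dvd h0
    have h2 : (ringChar F).Prime := CharP.char_is_prime F (ringChar F)
    rw [Nat.prime_dvd_prime_iff_eq h2 hl.prime] at h1
    apply hl.not_dvd_q hr (by omega) hF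
    rw [← h1]
    haveI : Fact (ringChar F).Prime := ⟨h2⟩
    obtain ⟨n, hn, hc⟩ := FiniteField.card F (ringChar F)
    rw [Nat.card_eq_fintype_card, hc]
    exact dvd_pow_self _ n.ne_zero
  refine RowOrth.noNorm (good hn) hp2 hl.prime ?_ hpF (hl.ne_two hr (by omega)) hlF ?_ hx (n := n) (m := n - 1)
    card_idx (by omega) (by omega) ?_ (εV := 1) (εY := -1) (Or.inl rfl) (Or.inr rfl) ?_ (sign_minus hlp) ?_ ?_
  · rintro rfl
    exact not_both hl.prime hp2 hq hj hpj hlp
  · rw [card_idx]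
    have := Nat.le_mul_of_pos_left (2 * (n - 1)) hf
    omega
  · intro i hi
    have h1 := (hl.dvd_q_iff hr hf hF _).1 hi
    exact Nat.dvd_of_mul_dvd_mul_left (by norm_num) h1
  · exact hasSign_plusForm n
  · intro h
    exact not_both hp.1 hp2 hq hj hpj (of_sign_minus h)
  · intro _ h
    apply not_both (m := 1) hp.1 hp2 hq hj hpj
    apply of_sign_minus
    rw [pow_one]
    simpa using h

/-- **The second torus.** -/
theorem noNorm_y2 (hn : 4 ≤ n) {k l : ℕ} (hk : k = n ∨ k = n - 1) (hko : Odd k)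
    (hl : Prm (Nat.card F) 1 k l) {p : ℕ} [hp : Fact p.Prime] (hp2 : p ≠ 2) (hpF : (p : F) ≠ 0)
    (hpj : ∀ j, Odd j → ¬ p ∣ Nat.card F ^ j - 1) {x : PO n F} (hx : orderOf x = l) : NoNorm p x := by
  have hq : 0 < Nat.card F := Nat.card_pos
  have hq2 : 2 ≤ Nat.card F := Finite.one_lt_card
  have hF : Nat.card F = Nat.card F ^ 1 := (pow_one _).symm
  have hlp : l ∣ Nat.card F ^ k - 1 := (hl.dvd_q_iff hq2 one_pos hF k).2 dvd_rfl
  have hlt := hl.lt hq2 (by omega)
  have hl2 : l ≠ 2 := hl.ne_two hq2 (by omega)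
  have hlF : (l : F) ≠ 0 := by
    intro h0
    have h1 := ringChar.dvd h0
    have h2 : (ringChar F).Prime := CharP.char_is_prime F (ringChar F)
    rw [Nat.prime_dvd_prime_iff_eq h2 hl.prime] at h1
    apply hl.not_dvd_q hq2 (by omega) hF
    rw [← h1]
    haveI : Fact (ringChar F).Prime := ⟨h2⟩
    obtain ⟨n, hn, hc⟩ := FiniteField.card F (ringChar F)
    rw [Nat.card_eq_fintype_card, hc]
    exact dvd_pow_self _ n.ne_zero
  refine RowOrth.noNorm (good hn) hp2 hl.prime ?_ hpF hl2 hlF ?_ hx (n := n) (m := k)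
    card_idx (by omega) (by omega) ?_ (εV := 1) (εY := 1) (Or.inl rfl) (Or.inl rfl) ?_ (sign_plus hq hlp) ?_ ?_
  · rintro rfl
    exact hpj k hko hlp
  · rw [card_idx]
    have h1 : k ∣ l - 1 := by
      have := hl.dvd_pred hq2 (by omega)
      rwa [one_mul] at this
    have h3 : 2 ∣ l - 1 := (hl.prime.odd_of_ne_two hl2).tsub_odd odd_one |>.two_dvd
    have h4 : 2 * k ∣ l - 1 := Nat.Coprime.mul_dvd_of_dvd_of_dvd (Nat.coprime_two_left.2 hko) h3 h1
    have h5 := Nat.le_of_dvd (by omega) h4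
    omega
  · intro i hi
    have h1 := (hl.dvd_q_iff hq2 one_pos hF _).1 hi
    exact (Nat.Coprime.dvd_of_dvd_mul_left (Nat.coprime_two_right.2 hko) h1)
  · exact hasSign_plusForm n
  · intro h
    exact hpj k hko (of_sign_plus hq h)
  · intro _ h
    apply hpj 1 odd_one
    apply of_sign_plus hq
    rw [pow_one]
    simpa using h

end Cfsg.Agent.H377.RowOPlus
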