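import Cfsg.Agent.H377.RowOPlusA
import Cfsg.Agent.H955.QClass
import Cfsg.Agent.S0293

/-!
# The row `PΩ⁺_{2n}(q)` of S4329: own characteristic, inner automorphisms, field automorphisms (helper377)
-/

set_option autoImplicit false
set_option linter.unusedSectionVars false
set_option linter.style.haveILetI false

namespace Cfsg.Agent.H377.RowOPlus

open QuadraticMap Module Subgroup Cfsg
open Cfsg.Agent.LieClassical.OrthCore Cfsg.Agent.LieClassical.OrthTrans Cfsg.Agent.LieClassical.OrthForms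
open Cfsg.Agent.LieClassical.OrthFinite
open Cfsg.Agent.ClassicalGeometry.OrthSemi
open Cfsg.Agent.ClassicalGeometry.OrthSemiForms
open Cfsg.Agent.H568 Cfsg.Agent.H377.Fpf Cfsg.Agent.H377.RowOrth Cfsg.Agent.H377.RowNum
open Cfsg.Agent.H182.Cent (Inv IsoP fixS mem_fixS)

variable {F : Type} [Field F] [Fintype F] {n : ℕ}

theorem prm_ne_zero {r f e l : ℕ} (hr : 2 ≤ r) (he : 0 < f * e) (hF : Nat.card F = r ^ f) (hl : Prm r f e l) :
    (l : F) ≠ 0 := by
  intro h0
  have h1 := ringChar.dvd h0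
  have h2 : (ringChar F).Prime := CharP.char_is_prime F (ringChar F)
  rw [Nat.prime_dvd_prime_iff_eq h2 hl.prime] at h1
  apply hl.not_dvd_q hr he hF
  rw [← h1]
  haveI : Fact (ringChar F).Prime := ⟨h2⟩
  obtain ⟨n, hn, hc⟩ := FiniteField.card F (ringChar F)
  rw [Nat.card_eq_fintype_card, hc]
  exact dvd_pow_self _ n.ne_zero

/-- No invariant totally singular subspaces. -/
theorem no_singular (hn : 4 ≤ n) {r f l : ℕ} (hr : 2 ≤ r) (hf : 0 < f) (hF : Nat.card F = r ^ f)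
    (hl : Prm r f (2 * (n - 1)) l) {X : ↥(E (plusForm n F))} (hX : X ^ l = 1) (hX1 : X ≠ 1)
    (U : Submodule F (Fin n ⊕ Fin n → F))
    (hU : ∀ u ∈ U, (X : (Fin n ⊕ Fin n → F) ≃ₗ[F] (Fin n ⊕ Fin n → F)) u ∈ U) (hUs : ∀ u ∈ U, plusForm n F u = 0) :
    U = ⊥ := by
  have he : 2 < f * (2 * (n - 1)) := by
    have := Nat.le_mul_of_pos_left (2 * (n - 1)) hf
    omega
  have hI : IsoQ (plusForm n F) (toEnd (X : (Fin n ⊕ Fin n → F) ≃ₗ[F] (Fin n ⊕ Fin n → F))) l :=
    isoQ_of (good hn) hl.prime (hl.ne_two hr (by omega)) (prm_ne_zero hr (by omega) hF hl) hX hX1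
  have hV : finrank F (Fin n ⊕ Fin n → F) = 2 * n := by rw [Module.finrank_fintype_fun_eq_card, card_idx]
  have hm : ∀ j, l ∣ Nat.card F ^ (2 * j) - 1 → n - 1 ∣ j := by
    intro i hi
    have h1 := (hl.dvd_q_iff hr hf hF _).1 hi
    exact Nat.dvd_of_mul_dvd_mul_left (by norm_num) h1
  have hlY := sign_minus (hl.dvd_plus hr hf (by omega) hF)
  obtain ⟨hs, -⟩ := hI.sign_fix hV (by omega) hm (εV := 1) (εY := -1) (Or.inr rfl) (Or.inl rfl) (hasSign_plusForm n) hlY
  have hfr : finrank F (fixS (toEnd (X : (Fin n ⊕ Fin n → F) ≃ₗ[F] (Fin n ⊕ Fin n → F)))) = 2 := by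
    have h1 := hI.isoP.finrank_add
    have h2 := hI.finrank_Y hV (by omega) hm
    omega
  have hfix : ∀ u ∈ U, toEnd (X : (Fin n ⊕ Fin n → F) ≃ₗ[F] (Fin n ⊕ Fin n → F)) u = u → u = 0 := by
    intro u hu hXu
    have h1 : n - (n - 1) = 1 := by omega
    rw [h1, one_mul] at hs
    have h2 := aniso_of_sign _ (nondeg_comp hI.isoP.compl.1) hfr hs (w := ⟨u, mem_fixS.2 hXu⟩) (hUs u hu)
    exact congrArg Subtype.val h2
  have hdvd := Cfsg.Agent.H182.Cent.dvd_pow_sub_one hI.prime hI.pow (Z := U) (fun u hu => hU u hu) hfix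
  have h3 := (hl.dvd_q_iff hr hf hF _).1 hdvd
  have h4 := Cfsg.Agent.H955.two_mul_finrank_le (good (F := F) hn).nondeg hUs
  rw [hV] at h4
  apply Submodule.finrank_eq_zero.1
  by_contra h0
  have h5 := Nat.le_of_dvd (Nat.pos_of_ne_zero h0) h3
  omega

/-- Own characteristic. -/
theorem noNorm_own_y1 (hn : 4 ≤ n) {r f l : ℕ} (hr : 2 ≤ r) (hf : 0 < f) (hF : Nat.card F = r ^ f)
    (hl : Prm r f (2 * (n - 1)) l) {p : ℕ} [hp : Fact p.Prime] (hp2 : p ≠ 2) (hpF : (p : F) = 0)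
    {x : PO n F} (hx : orderOf x = l) : NoNorm p x := by
  have he : 2 < f * (2 * (n - 1)) := by
    have := Nat.le_mul_of_pos_left (2 * (n - 1)) hf
    omega
  have hl2 := hl.ne_two hr (by omega)
  have hxl : x ^ l = 1 := hx ▸ pow_orderOf_eq_one x
  obtain ⟨X, rfl, hX⟩ := exists_lift (good hn) hl.prime hl2 hxl
  have hX1 : X ≠ 1 := by
    rintro rfl
    have h3 : orderOf ((1 : ↥(E (plusForm n F))) : PO n F) = 1 := orderOf_one
    rw [h3] at hx
    exact hl.prime.one_lt.ne hx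
  exact noNorm_own (good hn) hp2 hpF fun U hU hUs => no_singular hn hr hf hF hl hX hX1 U hU hUs

/-- A Sylow `7`-subgroup of `Ω₈⁺(2)` is cyclic. -/
theorem cyclic_seven (hF : Nat.card F = 2) [Fact (Nat.Prime 7)] (P : Sylow 7 (PO 4 F)) :
    IsCyclic ↥(P : Subgroup (PO 4 F)) := by
  have e := pomegaEquiv (good (F := F) (n := 4) le_rfl)
  have hc := Cfsg.Agent.S0293.result (F := F) (q := 2) (by rw [← Nat.card_eq_fintype_card, hF]) 4 le_rfl
  rw [← coe_plusForm, Nat.card_congr e.toEquiv] at hc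
  have hc' : Nat.card (PO 4 F) = 174182400 := by
    have h1 : Nat.gcd 4 (2 ^ 4 - 1) = 1 := by decide
    rw [h1, one_mul] at hc
    rw [hc]
    decide
  have hfin : Finite (PO 4 F) := Nat.finite_of_card_ne_zero (by rw [hc']; norm_num)
  obtain ⟨k, hk⟩ := IsPGroup.iff_card.1 P.isPGroup'
  have hdvd : 7 ^ k ∣ 174182400 := by
    rw [← hk, ← hc']
    exact Subgroup.card_subgroup_dvd_card _
  have hk1 : k ≤ 1 := by
    by_contra hcon
    have h2 : 7 ^ 2 ∣ 174182400 := (pow_dvd_pow 7 (by omega)).trans hdvd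
    revert h2
    decide
  rcases Nat.eq_zero_or_pos k with rfl | h0
  · have h3 : (P : Subgroup (PO 4 F)) = ⊥ := by
      apply Subgroup.eq_bot_of_card_eq
      rw [hk, pow_zero]
    rw [h3]
    infer_instance
  · obtain rfl : k = 1 := by omega
    exact isCyclic_of_prime_card (p := 7) (by rw [hk, pow_one])

end Cfsg.Agent.H377.RowOPlus
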