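import Cfsg.Agent.H377.RowOPlusB

/-!
# The row `PΩ⁺_{2n}(q)` of S4329: automorphisms induced by semisimilitudes (helper377)
-/

set_option autoImplicit false
set_option linter.unusedSectionVars false
set_option linter.style.haveILetI false

namespace Cfsg.Agent.H377.RowOPlus

open QuadraticMap Module Subgroup Cfsg
open Cfsg.Agent.LieClassical.OrthCore Cfsg.Agent.LieClassical.OrthTrans Cfsg.Agent.LieClassical.OrthForms
open Cfsg.Agent.LieClassical.OrthFinite
open Cfsg.Agent.ClassicalGeometry.OrthSemi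
open Cfsg.Agent.ClassicalGeometry.OrthSemiForms
open Cfsg.Agent.H568 Cfsg.Agent.H377.Fpf Cfsg.Agent.H377.RowOrth Cfsg.Agent.H377.RowNum

variable {F : Type} [Field F] [Fintype F] {n : ℕ}

theorem exists_char (F : Type) [Field F] [Fintype F] : ∃ r f : ℕ, r.Prime ∧ 0 < f ∧ Nat.card F = r ^ f ∧ (r : F) = 0 := by
  obtain ⟨r, hr⟩ := CharP.exists F
  have hrp : r.Prime := CharP.char_is_prime F r
  haveI : Fact r.Prime := ⟨hrp⟩
  obtain ⟨k, hk, hc⟩ := FiniteField.card F r
  exact ⟨r, k, hrp, k.pos, by rw [Nat.card_eq_fintype_card, hc], CharP.cast_eq_zero F r⟩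

theorem finite_PO : Finite (PO n F) := by
  haveI := finite_E (plusForm n F)
  infer_instance

/-- **Inner automorphisms.** -/
theorem inner_case (hn : 4 ≤ n) {p : ℕ} [hp : Fact p.Prime] (hp2 : p ≠ 2) (hdvd : p ∣ Nat.card (PO n F)) :
    (∃ P : Sylow p (PO n F), IsCyclic ↥(P : Subgroup (PO n F))) ∨ ∃ x : PO n F, NoNorm p x := by
  obtain ⟨r, f, hr, hf, hF, hrF⟩ := exists_char F
  have hq2 : 2 ≤ Nat.card F := Finite.one_lt_card
  have he : 2 < f * (2 * (n - 1)) := by
    have := Nat.le_mul_of_pos_left (2 * (n - 1)) hf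
    omega
  by_cases hpF : (p : F) = 0
  · right
    have hrp : r = p := by
      haveI : CharP F p := by
        obtain ⟨c, hc⟩ := CharP.exists F
        have hcp : c.Prime := CharP.char_is_prime F c
        have h1 : c ∣ p := (CharP.cast_eq_zero_iff F c p).1 hpF
        rwa [(Nat.prime_dvd_prime_iff_eq hcp hp.1).1 h1] at hc
      have h1 : p ∣ r := (CharP.cast_eq_zero_iff F p r).1 hrF
      exact ((Nat.prime_dvd_prime_iff_eq hp.1 hr).1 h1).symm
    obtain ⟨l, hl⟩ := exists_prm (e := 2 * (n - 1)) hr.two_le he (fun h => hp2 (hrp ▸ h.1))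
    obtain ⟨x, hx⟩ := exists_y1 (F := F) hn hl.prime (hl.ne_two hr.two_le (by omega))
      (hl.dvd_plus hr.two_le hf (by omega) hF)
    exact ⟨x, noNorm_own_y1 hn hr.two_le hf hF hl hp2 hpF hx⟩
  · by_cases hd : ∃ j, Odd j ∧ p ∣ Nat.card F ^ j - 1
    · obtain ⟨j, hj, hpj⟩ := hd
      by_cases h6 : r = 2 ∧ f * (2 * (n - 1)) = 6
      · left
        obtain ⟨rfl, h6⟩ := h6
        have hf1 : f = 1 := by
          by_contra hne
          have h2 : 2 * (2 * (n - 1)) ≤ f * (2 * (n - 1)) := Nat.mul_le_mul_right _ (by omega)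
          omega
        subst hf1
        obtain rfl : n = 4 := by omega
        rw [pow_one] at hF
        rw [hF] at hpj
        have e := pomegaEquiv (good (F := F) (n := 4) le_rfl)
        have hc := Cfsg.Agent.S0293.result (F := F) (q := 2) (by rw [← Nat.card_eq_fintype_card, hF]) 4 le_rfl
        rw [← coe_plusForm, Nat.card_congr e.toEquiv] at hc
        have h1 : Nat.gcd 4 (2 ^ 4 - 1) = 1 := by decide
        rw [h1, one_mul] at hc
        have hdvd' : p ∣ 2 ^ 12 * 3 ^ 5 * 5 ^ 2 * 7 := by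
          rw [hc] at hdvd
          have h2 : 2 ^ (4 * (4 - 1)) * (2 ^ 4 - 1) * ∏ i ∈ Finset.range (4 - 1), (2 ^ (2 * (i + 1)) - 1) =
            2 ^ 12 * 3 ^ 5 * 5 ^ 2 * 7 := by decide
          rwa [h2] at hdvd
        have h7 : p = 7 := by
          rcases (Nat.Prime.dvd_mul hp.1).1 hdvd' with h3 | h3
          · rcases (Nat.Prime.dvd_mul hp.1).1 h3 with h3 | h3
            · rcases (Nat.Prime.dvd_mul hp.1).1 h3 with h3 | h3
              · exact absurd ((Nat.prime_dvd_prime_iff_eq hp.1 Nat.prime_two).1 (hp.1.dvd_of_dvd_pow h3)) hp2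
              · have h4 := (Nat.prime_dvd_prime_iff_eq hp.1 Nat.prime_three).1 (hp.1.dvd_of_dvd_pow h3)
                exact (not_both (m := 1) hp.1 hp2 (by norm_num) hj hpj (by rw [h4]; norm_num)).elim
            · have h4 := (Nat.prime_dvd_prime_iff_eq hp.1 Nat.prime_five).1 (hp.1.dvd_of_dvd_pow h3)
              exact (not_both (m := 2) hp.1 hp2 (by norm_num) hj hpj (by rw [h4]; norm_num)).elim
          · exact (Nat.prime_dvd_prime_iff_eq hp.1 (by norm_num)).1 h3
        subst h7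
        haveI := finite_PO (n := 4) (F := F)
        exact ⟨default, cyclic_seven hF _⟩
      · right
        obtain ⟨l, hl⟩ := exists_prm (e := 2 * (n - 1)) hr.two_le he h6
        obtain ⟨x, hx⟩ := exists_y1 (F := F) hn hl.prime (hl.ne_two hr.two_le (by omega))
          (hl.dvd_plus hr.two_le hf (by omega) hF)
        exact ⟨x, noNorm_y1 hn hr.two_le hf hF hl hp2 hpF hj hpj hx⟩
    · right
      push Not at hd
      obtain ⟨k, hk, hko⟩ : ∃ k, (k = n ∨ k = n - 1) ∧ Odd k := by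
        rcases Nat.even_or_odd n with ⟨t, ht⟩ | h
        · exact ⟨n - 1, Or.inr rfl, ⟨t - 1, by omega⟩⟩
        · exact ⟨n, Or.inl rfl, h⟩
      obtain ⟨l, hl⟩ := exists_prm (r := Nat.card F) (f := 1) (e := k) hq2 (by omega) (fun h => by
        obtain ⟨c, hc⟩ := hko
        omega)
      have hlk : l ∣ Nat.card F ^ k - 1 := (hl.dvd_q_iff hq2 one_pos (pow_one _).symm k).2 dvd_rfl
      obtain ⟨x, hx⟩ := exists_y2 (F := F) hn hl.prime (hl.ne_two hq2 (by omega)) hk hlk
      exact ⟨x, noNorm_y2 hn hk hko hl hp2 hpF hd hx⟩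

/-- **Field automorphisms.** -/
theorem outer_case (hn : 4 ≤ n) {p : ℕ} [hp : Fact p.Prime] (hp2 : p ≠ 2) (a : MulAut (PO n F)) (ha : orderOf a = p)
    (hno : ∀ s : PO n F, a ≠ MulAut.conj s) (hra : ∀ g : MulAut (PO n F), g * a * g⁻¹ ∈ (Psi (plusForm n F)).range) :
    ∃ x : PO n F, ¬ p ∣ orderOf x ∧ PCent p x ∧ ∀ g : MulAut (PO n F), (g * a * g⁻¹) x ≠ x := by
  obtain ⟨r, f, hr, hf, hF, hrF⟩ := exists_char F
  have hap : a ^ p = 1 := ha ▸ pow_orderOf_eq_one a
  -- the conjugates are not inner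
  have hni : ∀ g : MulAut (PO n F), g * a * g⁻¹ ∉ (MulAut.conj : PO n F →* MulAut (PO n F)).range := by
    rintro g ⟨s, hs⟩
    apply hno (g⁻¹ s)
    have h1 : a = g⁻¹ * (g * a * g⁻¹) * g := by group
    rw [h1, ← hs]
    ext y
    simp [MulAut.mul_apply, MulAut.conj_apply]
  have hσ : ∀ g : MulAut (PO n F), ∃ (M : Gam (plusForm n F)) (σ : F ≃+* F) (c : F),
      Psi (plusForm n F) M = g * a * g⁻¹ ∧ IsSS (plusForm n F) σ c M.1 ∧ σ ≠ 1 ∧ Psi (plusForm n F) M ^ p = 1 := by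
    intro g
    obtain ⟨M, hM⟩ := hra g
    obtain ⟨σ, c, hMs⟩ := M.2
    have h1 : Psi (plusForm n F) M ^ p = 1 := by
      rw [hM, conj_pow, hap, mul_one, mul_inv_cancel]
    refine ⟨M, σ, c, hM, hMs, ?_, h1⟩
    rintro rfl
    apply hni g
    rw [← hM]
    exact inner_of_lin (good hn) hp.1 hp2 hMs h1
  -- `p ∣ f`
  have hpf : p ∣ f := by
    obtain ⟨M, σ, c, -, hMs, hσ1, hMp⟩ := hσ 1
    have h1 := FieldFix.card_fx hp.1 (sigma_pow (good hn) hMs hMp) hσ1
    have h2 : Nat.card ↥(FieldFix.fx σ) ∣ r ^ f := by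
      rw [← hF, h1]
      exact dvd_pow_self _ hp.1.ne_zero
    obtain ⟨f0, -, h3⟩ := (Nat.dvd_prime_pow hr).1 h2
    rw [h3, hF, ← pow_mul] at h1
    have h4 : f = f0 * p := Nat.pow_right_injective hr.two_le h1
    exact ⟨f0, by rw [h4, mul_comm]⟩
  have hpf' := Nat.le_of_dvd hf hpf
  have hp3 : 3 ≤ p := by
    have := hp.1.two_le
    omega
  have he : f * 6 ≤ f * (2 * (n - 1)) := Nat.mul_le_mul_left _ (by omega)
  obtain ⟨l, hl⟩ := exists_prm (r := r) (f := f) (e := 2 * (n - 1)) hr.two_le (by omega) (by omega)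
  have hl2 := hl.ne_two hr.two_le (by omega)
  have hlt := hl.lt hr.two_le (by omega)
  obtain ⟨x, hx⟩ := exists_y1 (F := F) hn hl.prime hl2 (hl.dvd_plus hr.two_le hf (by omega) hF)
  have hlp : l ≠ p := by omega
  refine ⟨x, ?_, ?_, ?_⟩
  · rw [hx]
    intro h
    exact hlp ((Nat.prime_dvd_prime_iff_eq hp.1 hl.prime).1 h).symm
  · by_cases hpF : (p : F) = 0
    · exact (noNorm_own_y1 hn hr.two_le hf hF hl hp2 hpF hx).pcent
    · refine pcent (good hn) hp2 hl.prime hlp hpF hl2 ?_ (hx ▸ pow_orderOf_eq_one x)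
      rw [card_idx]
      have := Nat.le_mul_of_pos_left (2 * (n - 1)) hf
      omega
  · intro g
    obtain ⟨M, σ, c, hM, hMs, hσ1, hMp⟩ := hσ g
    rw [← hM]
    refine field_ne (good hn) hp.1 hMs hσ1 hMp hl.prime hl2 (hl.not_dvd_q hr.two_le (by omega) hF) hr hF
      (e := f * (2 * (n - 1))) ?_ ?_ hx
    · intro m hm0 hm
      exact Nat.le_of_dvd (Nat.pos_of_ne_zero hm0) ((hl.dvd_iff hr.two_le m).1 hm)
    · rw [card_idx]
      have h1 : f * (2 * n) < 3 * (f * (2 * (n - 1))) := by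
        have h2 : 3 * (f * (2 * (n - 1))) = f * (3 * (2 * (n - 1))) := by ring
        rw [h2]
        exact Nat.mul_lt_mul_of_pos_left (by omega) hf
      exact lt_of_lt_of_le h1 (Nat.mul_le_mul_right _ hp3)

/-- The disjunction of `row_of` without triality. -/
theorem semi_case (hn : 4 ≤ n) {p : ℕ} [hp : Fact p.Prime] (hp2 : p ≠ 2) (a : MulAut (PO n F)) (ha : orderOf a = p)
    (hra : ∀ g : MulAut (PO n F), g * a * g⁻¹ ∈ (Psi (plusForm n F)).range) :
    ((∃ s : PO n F, a = MulAut.conj s) ∧ ∃ P : Sylow p (PO n F), IsCyclic ↥(P : Subgroup (PO n F))) ∨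
      ((∃ s : PO n F, a = MulAut.conj s) ∧ ∃ x : PO n F, NoNorm p x) ∨
      ∃ x : PO n F, ¬ p ∣ orderOf x ∧ PCent p x ∧ ∀ g : MulAut (PO n F), (g * a * g⁻¹) x ≠ x := by
  haveI := finite_PO (n := n) (F := F)
  by_cases hin : ∃ s : PO n F, a = MulAut.conj s
  · have hdvd : p ∣ Nat.card (PO n F) := by
      obtain ⟨s, rfl⟩ := hin
      have h1 : orderOf (MulAut.conj s : MulAut (PO n F)) ∣ orderOf s := orderOf_map_dvd (MulAut.conj : PO n F →* _) s
      rw [ha] at h1
      exact h1.trans (orderOf_dvd_natCard s)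
    rcases inner_case hn hp2 hdvd with h | h
    · exact Or.inl ⟨hin, h⟩
    · exact Or.inr (Or.inl ⟨hin, h⟩)
  · push Not at hin
    exact Or.inr (Or.inr (outer_case hn hp2 a ha hin hra))

theorem simple_PO (hn : 4 ≤ n) : IsSimpleGroup (PO n F) :=
  Cfsg.Agent.LieClassical.OrthSimple.good_isSimpleGroup (good hn)

theorem not_comm_PO (hn : 4 ≤ n) : ¬ IsMulCommutative (PO n F) := by
  haveI := simple_PO (F := F) hn
  exact Cfsg.Agent.CpAut.Fix.not_comm_quot

/-- **The row for `n ≥ 5`.** -/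
theorem row_five (hn : 5 ≤ n) {p : ℕ} [hp : Fact p.Prime] (hp2 : p ≠ 2) : Row p (PO n F) := by
  haveI := finite_PO (n := n) (F := F)
  haveI := simple_PO (F := F) (n := n) (by omega)
  exact row_of (not_comm_PO (by omega)) fun a ha =>
    semi_case (by omega) hp2 a ha fun g => AutOrth.Final.surjective_plus hn _

end Cfsg.Agent.H377.RowOPlus
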