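import Cfsg.Agent.H377.RowSplit
import Cfsg.Agent.H568.Cover
import Cfsg.Agent.H568.FieldFix
import Cfsg.Agent.CpAut.OrthRow

/-!
# General tools for the orthogonal rows of S4329 (helper377)

`Q` a `Good` quadratic form on `ι → F`, `S = E Q / Z`.
-/

set_option autoImplicit false
set_option linter.unusedSectionVars false
set_option linter.style.haveILetI false

namespace Cfsg.Agent.H377.RowOrth

open QuadraticMap Module Subgroup Matrix
open Cfsg.Agent.LieClassical.OrthCore Cfsg.Agent.LieClassical.OrthTrans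
open Cfsg.Agent.ClassicalGeometry.OrthAut1 (center_scalar)
open Cfsg.Agent.ClassicalGeometry.OrthSemi
open Cfsg.Agent.H568 Cfsg.Agent.H377.Fpf

variable {F : Type*} [Field F] {ι : Type*} [Fintype ι] [DecidableEq ι] {Q : QuadraticForm F (ι → F)}

/-- the matrix of a linear map -/
noncomputable def toGL : ((ι → F) ≃ₗ[F] (ι → F)) ≃* GL ι F :=
  (LinearMap.GeneralLinearGroup.generalLinearEquiv F (ι → F)).symm.trans (Matrix.GeneralLinearGroup.toLin).symm

theorem toGL_symm_apply (A : GL ι F) (v : ι → F) : (toGL.symm A : (ι → F) ≃ₗ[F] (ι → F)) v = (A : Matrix ι ι F) *ᵥ v := rfl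

theorem toGL_mulVec (g : (ι → F) ≃ₗ[F] (ι → F)) (v : ι → F) : (toGL g : Matrix ι ι F) *ᵥ v = g v := by
  rw [← toGL_symm_apply, MulEquiv.symm_apply_apply]

theorem toGL_eq (g : (ι → F) ≃ₗ[F] (ι → F)) : (toGL g : Matrix ι ι F) = LinearMap.toMatrix' g.toLinearMap := by
  apply Matrix.toLin'.injective
  rw [Matrix.toLin'_toMatrix']
  apply LinearMap.ext
  intro v
  exact toGL_mulVec g v

/-- the representation of `E Q` -/
noncomputable def rE (Q : QuadraticForm F (ι → F)) : ↥(E Q) →* GL ι F := (toGL (F := F) (ι := ι)).toMonoidHom.comp (E Q).subtype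

theorem rE_mulVec (g : ↥(E Q)) (v : ι → F) : (rE Q g : Matrix ι ι F) *ᵥ v = (g : (ι → F) ≃ₗ[F] (ι → F)) v := toGL_mulVec _ v

theorem rE_injective : Function.Injective (rE Q) := by
  intro a b h
  apply Subtype.ext
  exact toGL.injective h

/-- the Gram matrix -/
noncomputable def gram (Q : QuadraticForm F (ι → F)) : Matrix ι ι F :=
  LinearMap.BilinForm.toMatrix (Pi.basisFun F ι) (polarBilin Q)

theorem gram_det [Finite F] (hQ : Nondeg Q) : (gram Q).det ≠ 0 :=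
  (LinearMap.BilinForm.nondegenerate_iff_det_ne_zero _).1 (nondegenerate_of_nondeg hQ)

theorem gram_inv (g : (ι → F) ≃ₗ[F] (ι → F)) (hg : ∀ v, Q (g v) = Q v) :
    (toGL g : Matrix ι ι F)ᵀ * gram Q * (toGL g : Matrix ι ι F) = gram Q := by
  rw [toGL_eq, ← LinearMap.toMatrix_eq_toMatrix']
  unfold gram
  rw [← LinearMap.BilinForm.toMatrix_comp]
  congr 1
  refine LinearMap.ext fun v => LinearMap.ext fun w => ?_
  show polar Q (g v) (g w) = polar Q v w
  rw [polar, ← map_add, hg, hg, hg]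
  rfl

theorem center_sq (hG : Good Q) {z : ↥(E Q)} (hz : z ∈ center ↥(E Q)) : z ^ 2 = 1 := by
  obtain ⟨c, hc⟩ := center_scalar hG hz
  obtain ⟨v, hv⟩ := Cfsg.Agent.CpAut.Orth.exists_ne hG
  have h1 : Q ((z : (ι → F) ≃ₗ[F] (ι → F)) v) = Q v := mem_O.1 (E_le_O z.2) v
  rw [hc, QuadraticMap.map_smul, smul_eq_mul] at h1
  have h2 : c * c = 1 := by
    apply mul_right_cancel₀ hv
    rw [one_mul, h1]
  apply Subtype.ext
  apply LinearEquiv.ext
  intro w
  rw [pow_two]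
  change (z : (ι → F) ≃ₗ[F] (ι → F)) ((z : (ι → F) ≃ₗ[F] (ι → F)) w) = w
  rw [hc, hc, smul_smul, h2, one_smul]

theorem finite_E [Finite F] (Q : QuadraticForm F (ι → F)) : Finite ↥(E Q) :=
  Finite.of_injective (rE Q) rE_injective

theorem not_dvd_center [Finite F] (hG : Good Q) {l : ℕ} (hl : l.Prime) (hl2 : l ≠ 2) :
    ¬ l ∣ Nat.card (QuotientGroup.mk' (center ↥(E Q))).ker := by
  haveI := finite_E Q
  haveI : Fact l.Prime := ⟨hl⟩
  rw [QuotientGroup.ker_mk']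
  intro h
  obtain ⟨z, hz⟩ := exists_prime_orderOf_dvd_card' l h
  have h1 : z ^ 2 = 1 := Subtype.ext (center_sq hG z.2)
  have h2 := orderOf_dvd_of_pow_eq_one h1
  rw [hz] at h2
  exact hl2 ((Nat.prime_dvd_prime_iff_eq hl Nat.prime_two).1 h2)

/-- **`PCent`.** -/
theorem pcent [Finite F] (hG : Good Q) {p l : ℕ} [hp : Fact p.Prime] (hp2 : p ≠ 2) (hl : l.Prime) (hlp : l ≠ p)
    (hpF : (p : F) ≠ 0) (hl2 : l ≠ 2) (hcard : Fintype.card ι < 2 * l) {x : ↥(E Q) ⧸ center ↥(E Q)} (hx : x ^ l = 1) :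
    PCent p x := by
  haveI := finite_E Q
  exact pcent_form (π := QuotientGroup.mk' (center ↥(E Q))) (QuotientGroup.mk'_surjective _)
    (by rw [QuotientGroup.ker_mk']) (rE Q) rE_injective hp2 hl hlp hpF hl2 hcard (gram Q) (gram_det hG.nondeg)
    (fun y => gram_inv _ fun v => mem_O.1 (E_le_O y.2) v) hx

/-- Lift of an element of odd prime order. -/
theorem exists_lift [Finite F] (hG : Good Q) {l : ℕ} (hl : l.Prime) (hl2 : l ≠ 2) {x : ↥(E Q) ⧸ center ↥(E Q)}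
    (hx : x ^ l = 1) : ∃ X : ↥(E Q), (X : ↥(E Q) ⧸ center ↥(E Q)) = x ∧ X ^ l = 1 := by
  haveI := finite_E Q
  exact lift_prime (π := QuotientGroup.mk' (center ↥(E Q))) (QuotientGroup.mk'_surjective _)
    (by rw [QuotientGroup.ker_mk']) hl (not_dvd_center hG hl hl2) hx

/-- the endomorphism -/
abbrev toEnd (X : (ι → F) ≃ₗ[F] (ι → F)) : Module.End F (ι → F) := X.toLinearMap

theorem toEnd_pow (X : (ι → F) ≃ₗ[F] (ι → F)) (k : ℕ) : toEnd X ^ k = toEnd (X ^ k) := by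
  induction k with
  | zero => rfl
  | succ k ih => rw [pow_succ, ih, pow_succ]; rfl

theorem isoQ_of [Finite F] (hG : Good Q) {l : ℕ} (hl : l.Prime) (hl2 : l ≠ 2) (hlF : (l : F) ≠ 0) {X : ↥(E Q)}
    (hX : X ^ l = 1) (hX1 : X ≠ 1) : IsoQ Q (toEnd (X : (ι → F) ≃ₗ[F] (ι → F))) l where
  nondeg := hG.nondeg
  isom v := mem_O.1 (E_le_O X.2) v
  prime := hl
  ne_two := hl2
  pow := by
    rw [toEnd_pow]
    have h1 : ((X : (ι → F) ≃ₗ[F] (ι → F))) ^ l = 1 := by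
      have := congrArg Subtype.val hX
      simpa using this
    rw [h1]
    rfl
  char := hlF
  ne_one h := hX1 (by
    apply Subtype.ext
    apply LinearEquiv.ext
    intro v
    exact LinearMap.congr_fun h v)

/-- Commuting elements lift to commuting elements. -/
theorem commute_lift [Finite F] (hG : Good Q) {l : ℕ} (hl : l.Prime) (hl2 : l ≠ 2) {X Y : ↥(E Q)} (hX : X ^ l = 1)
    (h : (X : ↥(E Q) ⧸ center ↥(E Q)) * (Y : ↥(E Q) ⧸ center ↥(E Q)) =
      (Y : ↥(E Q) ⧸ center ↥(E Q)) * (X : ↥(E Q) ⧸ center ↥(E Q))) : Commute X Y := by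
  haveI := finite_E Q
  have h1 : QuotientGroup.mk' (center ↥(E Q)) (Y * X * Y⁻¹) = QuotientGroup.mk' (center ↥(E Q)) X := by
    rw [map_mul, map_mul, map_inv]
    exact mul_inv_eq_iff_eq_mul.2 h.symm
  have h2 := eq_of_lift (π := QuotientGroup.mk' (center ↥(E Q)))
    (by rw [QuotientGroup.ker_mk']) hl (not_dvd_center hG hl hl2) h1 (by rw [conj_pow, hX, mul_one, mul_inv_cancel]) hX
  exact (mul_inv_eq_iff_eq_mul.1 h2).symm

/-- **`NoNorm` in coprime characteristic, dimension `2n`.** -/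
theorem noNorm [Finite F] (hG : Good Q) {p l : ℕ} [hp : Fact p.Prime] (hp2 : p ≠ 2) (hl : l.Prime) (hlp : l ≠ p)
    (hpF : (p : F) ≠ 0) (hl2 : l ≠ 2) (hlF : (l : F) ≠ 0) (hcard : Fintype.card ι < 2 * l)
    {x : ↥(E Q) ⧸ center ↥(E Q)} (hx : orderOf x = l) {n m : ℕ} (hV : Fintype.card ι = 2 * n) (hn1 : n ≤ m + 1)
    (hn2 : n < 2 * m) (hm : ∀ j, l ∣ Nat.card F ^ (2 * j) - 1 → m ∣ j) {εV εY : ℤ} (hεV : εV = 1 ∨ εV = -1)
    (hεY : εY = 1 ∨ εY = -1) (hsV : HasSign (⇑Q) n εV) (hlY : (l : ℤ) ∣ εY * (Nat.card F : ℤ) ^ m - 1)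
    (h1 : ¬ (p : ℤ) ∣ εY * (Nat.card F : ℤ) ^ m - 1)
    (h2 : n = m + 1 → ¬ (p : ℤ) ∣ εV * εY * (Nat.card F : ℤ) - 1) : NoNorm p x := by
  haveI := finite_E Q
  have hxl : x ^ l = 1 := hx ▸ pow_orderOf_eq_one x
  refine noNorm_of_pcent (pcent hG hp2 hl hlp hpF hl2 hcard hxl) fun y hy hxy => ?_
  obtain ⟨X, rfl, hX⟩ := exists_lift hG hl hl2 hxl
  obtain ⟨Y, rfl, hY⟩ := exists_lift hG hp.1 hp2 (x := y) (by rw [← hy]; exact pow_orderOf_eq_one y)
  have hX1 : X ≠ 1 := by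
    rintro rfl
    have h3 : orderOf ((1 : ↥(E Q)) : ↥(E Q) ⧸ center ↥(E Q)) = 1 := orderOf_one
    rw [h3] at hx
    exact hl.one_lt.ne hx
  have hY1 : Y ≠ 1 := by
    rintro rfl
    have h3 : orderOf ((1 : ↥(E Q)) : ↥(E Q) ⧸ center ↥(E Q)) = 1 := orderOf_one
    rw [h3] at hy
    exact hp.1.one_lt.ne hy
  have hc : Commute X Y := commute_lift hG hl hl2 hX hxy
  have hc' : Commute (toEnd (Y : (ι → F) ≃ₗ[F] (ι → F))) (toEnd (X : (ι → F) ≃ₗ[F] (ι → F))) := by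
    apply LinearMap.ext
    intro v
    have h3 : ((Y * X : ↥(E Q)) : (ι → F) ≃ₗ[F] (ι → F)) v = ((X * Y : ↥(E Q)) : (ι → F) ≃ₗ[F] (ι → F)) v := by
      rw [hc.eq]
    exact h3
  rcases commute_sign (isoQ_of hG hl hl2 hlF hX hX1) (isoQ_of hG hp.1 hp2 hpF hY hY1) hc'
    (by rw [Module.finrank_fintype_fun_eq_card, hV]) hn1 hn2 hm hεV hεY hsV hlY with h | ⟨h, h'⟩
  · exact h1 h
  · exact h2 h h'

end Cfsg.Agent.H377.RowOrth
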