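import Cfsg.Agent.H377.RowOPlusC

/-!
# Triality in the row `PΩ₈⁺(q)` of S4329: the two general lemmas (helper377)

* `coset_three` : an element of odd prime order acts trivially or without fixed points on the cosets of a subgroup
  of index three;
* `not_fixed` : an element of `E Q` fixing a singular vector and leaving invariant no totally singular 4-space is
  not fixed (modulo scalars) by an automorphism which is not induced by a semisimilitude.
-/

set_option autoImplicit false
set_option linter.unusedSectionVars false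
set_option linter.style.haveILetI false

namespace Cfsg.Agent.H377.RowTri

open QuadraticMap Module Subgroup
open Cfsg.Agent.LieClassical.OrthCore Cfsg.Agent.LieClassical.OrthTrans
open Cfsg.Agent.ClassicalGeometry.OrthAut1
open Cfsg.Agent.ClassicalGeometry.OrthSemi
open Cfsg.Agent.AutOrth.Main (Pt)

theorem card_modEq {α : Type*} [Finite α] {p : ℕ} (hp : p.Prime) (f : α → α) (hf : ∀ a, f^[p] a = a) :
    Nat.card α ≡ Nat.card {a // f a = a} [MOD p] := by
  classical
  letI := Fintype.ofFinite α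
  haveI : Fact p.Prime := ⟨hp⟩
  let g : Function.End α := f
  have hpow : ∀ (n : ℕ) (a : α), (g ^ n) a = f^[n] a := by
    intro n
    induction n with
    | zero => exact fun a => rfl
    | succ n ih =>
      intro a
      rw [pow_succ, Function.iterate_succ_apply]
      exact ih (f a)
  have h := Equiv.Perm.card_fixedPoints_modEq (f := g) (p := p) (n := 1) (by
    rw [pow_one]
    funext a
    rw [hpow, hf]
    rfl)
  rw [← Nat.card_eq_fintype_card, ← Nat.card_eq_fintype_card] at h
  exact h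

theorem coset_three {A : Type*} [Group A] (H : Subgroup A) (hH : H.index = 3) {p : ℕ} (hp : p.Prime) (hp2 : p ≠ 2)
    (a : A) (ha : a ^ p = 1) : (∀ g : A, g * a * g⁻¹ ∈ H) ∨ (p = 3 ∧ ∀ g : A, g * a * g⁻¹ ∉ H) := by
  classical
  have hcard : Nat.card (A ⧸ H) = 3 := hH
  haveI : Finite (A ⧸ H) := Nat.finite_of_card_ne_zero (by rw [hcard]; norm_num)
  have hit : ∀ (n : ℕ) (x : A ⧸ H), (fun x : A ⧸ H => a • x)^[n] x = a ^ n • x := by
    intro n
    induction n with
    | zero => intro x; simp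
    | succ n ih =>
      intro x
      rw [Function.iterate_succ_apply, ih, pow_succ, mul_smul]
  have h := card_modEq hp (fun x : A ⧸ H => a • x) (fun x => by rw [hit, ha, one_smul])
  rw [hcard] at h
  have hle : Nat.card {x : A ⧸ H // a • x = x} ≤ 3 := by
    rw [← hcard]
    exact Nat.card_le_card_of_injective _ Subtype.val_injective
  have hiff : ∀ g : A, g * a * g⁻¹ ∈ H ↔ a • ((g⁻¹ : A) : A ⧸ H) = ((g⁻¹ : A) : A ⧸ H) := by
    intro g
    rw [eq_comm]
    change _ ↔ ((g⁻¹ : A) : A ⧸ H) = ((a * g⁻¹ : A) : A ⧸ H)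
    rw [QuotientGroup.eq, inv_inv, ← mul_assoc]
  by_cases h3 : Nat.card {x : A ⧸ H // a • x = x} = 3
  · left
    intro g
    rw [hiff]
    by_contra hne
    have hlt : Nat.card {x : A ⧸ H // a • x = x} < Nat.card (A ⧸ H) := by
      letI := Fintype.ofFinite (A ⧸ H)
      rw [Nat.card_eq_fintype_card, Nat.card_eq_fintype_card]
      exact Fintype.card_subtype_lt hne
    omega
  · right
    have hd : p ∣ 3 - Nat.card {x : A ⧸ H // a • x = x} := (Nat.modEq_iff_dvd' hle).1 h.symm
    have hp3 : 3 ≤ p := by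
      have := hp.two_le
      omega
    have h4 := Nat.le_of_dvd (by omega) hd
    have h5 : Nat.card {x : A ⧸ H // a • x = x} = 0 := by omega
    refine ⟨by omega, fun g hg => ?_⟩
    rw [hiff] at hg
    have : IsEmpty {x : A ⧸ H // a • x = x} := by
      rcases Nat.card_eq_zero.1 h5 with h6 | h6
      · exact h6
      · exact (h6.not_finite inferInstance).elim
    exact this.false ⟨_, hg⟩

variable {F V : Type*} [Field F] [AddCommGroup V] [Module F V] {Q : QuadraticForm F V}

theorem mem_stab_pact (hG : Good Q) (p s : P Q) (W : Submodule F V) :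
    p ∈ stab hG (pact hG s W) ↔ s⁻¹ * p * s ∈ stab hG W := by
  rw [mem_stab, mem_stab, map_mul, map_mul, map_inv, Equiv.Perm.mul_apply, Equiv.Perm.mul_apply,
    Equiv.Perm.inv_eq_iff_eq]

/-- One point stabiliser is enough. -/
theorem pt_of_one (hG : Good Q) {b : MulAut (P Q)} {v y : V} (hv : Q v = 0) (hv0 : v ≠ 0)
    (hy : Q y = 0) (hy0 : y ≠ 0)
    (h : (stab hG (Submodule.span F {v})).map b.toMonoidHom = stab hG (Submodule.span F {y})) : Pt hG b := by
  intro x hx hx0
  obtain ⟨g, hgE, hg⟩ := hG.trans_sing hv hx hv0 hx0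
  obtain ⟨k, hk⟩ := QuotientGroup.mk_surjective (b ((⟨g, hgE⟩ : ↥(E Q)) : P Q))
  refine ⟨(k : V ≃ₗ[F] V) y, ?_, ?_, ?_⟩
  · rw [← hy]
    exact mem_O.1 (E_le_O k.2) y
  · intro h0
    exact hy0 ((k : V ≃ₗ[F] V).map_eq_zero_iff.1 h0)
  · have e1 : Submodule.span F {x} = pact hG ((⟨g, hgE⟩ : ↥(E Q)) : P Q) (Submodule.span F {v}) := by
      rw [pact_mk, mapHom_span, ← hg]
    have e2 : Submodule.span F {(k : V ≃ₗ[F] V) y} = pact hG (k : P Q) (Submodule.span F {y}) := by
      rw [pact_mk, mapHom_span]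
    ext p
    rw [mem_map]
    constructor
    · rintro ⟨p, hp, rfl⟩
      rw [e1, mem_stab_pact] at hp
      change b p ∈ _
      rw [e2, mem_stab_pact, ← h, mem_map]
      refine ⟨_, hp, ?_⟩
      change b _ = _
      rw [map_mul, map_mul, map_inv, hk]
    · intro hp
      rw [e2, mem_stab_pact, ← h, mem_map] at hp
      obtain ⟨p', hp', he⟩ := hp
      refine ⟨((⟨g, hgE⟩ : ↥(E Q)) : P Q) * p' * ((⟨g, hgE⟩ : ↥(E Q)) : P Q)⁻¹, ?_, ?_⟩
      · rw [e1, mem_stab_pact]
        have : (((⟨g, hgE⟩ : ↥(E Q)) : P Q))⁻¹ * ((((⟨g, hgE⟩ : ↥(E Q)) : P Q)) * p' *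
            (((⟨g, hgE⟩ : ↥(E Q)) : P Q))⁻¹) * (((⟨g, hgE⟩ : ↥(E Q)) : P Q)) = p' := by group
        rw [this]
        exact hp'
      · change b _ = _
        change b p' = _ at he
        rw [map_mul, map_mul, map_inv, he, ← hk]
        group

/-- **Triality moves elements fixing a singular vector but no maximal totally singular subspace.** -/
theorem not_fixed [Finite F] [FiniteDimensional F V] (hG : Good Q) (h7 : 7 ≤ finrank F V) {b : MulAut (P Q)}
    (hb : b ∉ (Psi Q).range) {X : ↥(E Q)} {v : V} (hv : Q v = 0) (hv0 : v ≠ 0)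
    (hXv : (X : V ≃ₗ[F] V) v = v)
    (hno : ∀ W : Submodule F V, TS Q W → finrank F W = 4 → ¬ ∀ w ∈ W, (X : V ≃ₗ[F] V) w ∈ W) :
    b (X : P Q) ≠ (X : P Q) := by
  intro hfix
  have hXs : (X : P Q) ∈ stab hG (Submodule.span F {v}) := by
    rw [mem_stab, pact_mk, mapHom_span, hXv]
  rcases Cfsg.Agent.ClassicalGeometry.OrthAut3.dichotomy hG h7 b hv hv0 with ⟨y, hy, hy0, h⟩ | ⟨-, W, hW, hW4, h⟩
  · exact hb (Cfsg.Agent.AutOrth.Final.mem_range_of_pt hG h7 (pt_of_one hG hv hv0 hy hy0 h))
  · apply hno W hW hW4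
    intro w hw
    have h1 : (X : P Q) ∈ stab hG W := by
      rw [← h, mem_map]
      exact ⟨_, hXs, hfix⟩
    exact apply_mem_of_mem_stab h1 hw

end Cfsg.Agent.H377.RowTri
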